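import Mathlib

/-!
Basic objects for the fixed point bound of Sylow subgroups of transitive groups.
-/

namespace Cfsg.Agent.H9.SylowFix

open MulAction Pointwise

variable {G Ω : Type*} [Group G] [MulAction G Ω] (p : ℕ)

/-- `g` has `p`-power order. -/
def PEl (g : G) : Prop := ∃ k : ℕ, orderOf g = p ^ k

variable {p}

theorem pel_conj {g : G} (h : G) (hg : PEl p g) : PEl p (h * g * h⁻¹) := by
  obtain ⟨k, hk⟩ := hg
  refine ⟨k, ?_⟩
  rw [← hk]
  exact orderOf_injective (MulAut.conj h).toMonoidHom (MulAut.conj h).injective g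

theorem isPGroup_zpowers [Fact p.Prime] {g : G} (hg : PEl p g) :
    IsPGroup p (Subgroup.zpowers g) := by
  obtain ⟨k, hk⟩ := hg
  exact IsPGroup.of_card (n := k) (by rw [Nat.card_zpowers, hk])

theorem pel_of_mem [Fact p.Prime] {P : Subgroup G} (hP : IsPGroup p P) {g : G} (hg : g ∈ P) :
    PEl p g := by
  obtain ⟨k, hk⟩ := (IsPGroup.iff_orderOf.1 hP) ⟨g, hg⟩
  exact ⟨k, by rw [← hk, ← Subgroup.orderOf_coe]⟩

theorem pel_pow [Fact p.Prime] {g : G} (hg : PEl p g) (m : ℕ) : PEl p (g ^ m) :=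
  pel_of_mem (isPGroup_zpowers hg) (pow_mem (Subgroup.mem_zpowers g) m)

variable (p) in
/-- The subgroup generated by the `p`-elements fixing `S` pointwise. -/
def fixP (G : Type*) [Group G] [MulAction G Ω] (S : Set Ω) : Subgroup G :=
  Subgroup.closure {g : G | (∀ s ∈ S, g • s = s) ∧ PEl p g}

theorem mem_fixP {S : Set Ω} {g : G} (h1 : ∀ s ∈ S, g • s = s) (h2 : PEl p g) :
    g ∈ fixP p G S :=
  Subgroup.subset_closure ⟨h1, h2⟩

theorem fixP_smul_eq {S : Set Ω} {g : G} (hg : g ∈ fixP p G S) {s : Ω} (hs : s ∈ S) :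
    g • s = s := by
  have : fixP p G S ≤ stabilizer G s :=
    (Subgroup.closure_le _).2 fun x hx => hx.1 s hs
  exact this hg

theorem fixP_mono {S T : Set Ω} (h : S ⊆ T) : fixP p G T ≤ fixP p G S :=
  Subgroup.closure_mono fun _ hg => ⟨fun s hs => hg.1 s (h hs), hg.2⟩

theorem fixP_le_iff {S : Set Ω} {H : Subgroup G} :
    fixP p G S ≤ H ↔ ∀ g : G, (∀ s ∈ S, g • s = s) → PEl p g → g ∈ H :=
  ⟨fun h _ h1 h2 => h (mem_fixP h1 h2), fun h => (Subgroup.closure_le _).2 fun g hg => h g hg.1 hg.2⟩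

theorem fixP_conj_mem {S T : Set Ω} {h g : G} (hST : ∀ t ∈ T, ∃ s ∈ S, h • s = t)
    (hg : g ∈ fixP p G S) : h * g * h⁻¹ ∈ fixP p G T := by
  have : fixP p G S ≤ (fixP p G T).comap (MulAut.conj h).toMonoidHom := by
    rw [fixP_le_iff]
    intro x hx hp
    refine mem_fixP (fun t ht => ?_) (pel_conj h hp)
    obtain ⟨s, hs, rfl⟩ := hST t ht
    simp only [MulEquiv.coe_toMonoidHom, MulAut.conj_apply, mul_smul, inv_smul_smul, hx s hs]
  exact this hg

theorem fixP_image {S : Set Ω} (h : G) :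
    fixP p G ((h • ·) '' S) = (fixP p G S).map (MulAut.conj h).toMonoidHom := by
  apply le_antisymm
  · intro g hg
    refine ⟨h⁻¹ * g * h, ?_, by simp [MulAut.conj_apply]; group⟩
    have := fixP_conj_mem (T := S) (h := h⁻¹)
      (fun s hs => ⟨h • s, Set.mem_image_of_mem _ hs, inv_smul_smul h s⟩) hg
    simpa using this
  · rintro _ ⟨g, hg, rfl⟩
    exact fixP_conj_mem (fun t ht => ht) hg

/-- Conjugating by an element fixing `S`. -/
theorem fixP_insert_smul {S : Set Ω} {h : G} (hS : ∀ s ∈ S, h • s = s) (z : Ω) :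
    fixP p G (insert (h • z) S) = (fixP p G (insert z S)).map (MulAut.conj h).toMonoidHom := by
  rw [← fixP_image, Set.image_insert_eq]
  congr
  ext t
  constructor
  · exact fun ht => ⟨t, ht, hS t ht⟩
  · rintro ⟨s, hs, rfl⟩
    simpa [hS s hs] using hs

/-- A Sylow subgroup fixing `S` pointwise lies in `fixP`. -/
theorem sylow_le_fixP [Fact p.Prime] {S : Set Ω} (Q : Sylow p G)
    (h : ∀ q ∈ (Q : Subgroup G), ∀ s ∈ S, q • s = s) : (Q : Subgroup G) ≤ fixP p G S :=
  fun q hq => mem_fixP (h q hq) (pel_of_mem Q.2 hq)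

variable (p) in
/-- Some Sylow subgroup fixes `S` pointwise. -/
def Good (G : Type*) [Group G] [MulAction G Ω] (S : Set Ω) : Prop :=
  ∃ Q : Sylow p G, ∀ q ∈ (Q : Subgroup G), ∀ s ∈ S, q • s = s

variable [Fact p.Prime] [Finite G]

/-- A `p`-element normalising a subgroup which contains a Sylow subgroup lies in it. -/
theorem mem_of_normalizes (Q : Sylow p G) {X : Subgroup G} (hQ : (Q : Subgroup G) ≤ X) {g : G}
    (hg : PEl p g) (hn : ∀ x ∈ X, g * x * g⁻¹ ∈ X) : g ∈ X := by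
  have hgN : g ∈ Subgroup.normalizer (X : Set G) := by
    have hle : X.map (MulAut.conj g).toMonoidHom ≤ X := by
      rintro _ ⟨x, hx, rfl⟩
      exact hn x hx
    have heq : X.map (MulAut.conj g).toMonoidHom = X :=
      Subgroup.eq_of_le_of_card_ge hle
        (Subgroup.card_map_of_injective (MulAut.conj g).injective).ge
    rw [Subgroup.mem_normalizer_iff]
    intro x
    refine ⟨hn x, fun hx => ?_⟩
    rw [← heq] at hx
    obtain ⟨y, hy, hyx⟩ := hx
    rwa [← (MulAut.conj g).injective hyx]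
  set N := Subgroup.normalizer (X : Set G)
  haveI : (X.subgroupOf N).Normal := Subgroup.normal_in_normalizer
  have hpow : (⟨g, hgN⟩ : N) ^ (X.subgroupOf N).index ∈ X.subgroupOf N := Subgroup.pow_index_mem _ _
  have hmem : g ^ X.relIndex N ∈ X := by
    simpa [Subgroup.mem_subgroupOf, Subgroup.relIndex] using hpow
  have hndvd : ¬ p ∣ X.relIndex N := by
    intro h
    have h1 := Subgroup.relIndex_mul_index hQ
    have h2 := Subgroup.relIndex_mul_index (Subgroup.le_normalizer : X ≤ N)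
    have h3 : p ∣ (Q : Subgroup G).index := by
      rw [← h1, ← h2]
      exact Dvd.dvd.mul_left (Dvd.dvd.mul_right h _) _
    exact Q.not_dvd_index h3
  obtain ⟨k, hk⟩ := hg
  have hco : (orderOf g).Coprime (X.relIndex N) := by
    rw [hk]
    exact Nat.Coprime.pow_left k ((Fact.out : p.Prime).coprime_iff_not_dvd.2 hndvd)
  obtain ⟨m, hm⟩ := exists_pow_eq_self_of_coprime hco.symm
  rw [← hm]
  exact pow_mem hmem m

/-- A `p`-element of a subgroup containing a Sylow subgroup is conjugate inside it into that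
Sylow subgroup. -/
theorem exists_conj_mem (Q : Sylow p G) {X : Subgroup G} (hQ : (Q : Subgroup G) ≤ X) {g : G}
    (hgX : g ∈ X) (hg : PEl p g) : ∃ x ∈ X, x * g * x⁻¹ ∈ (Q : Subgroup G) := by
  obtain ⟨k, hk⟩ := hg
  have hg' : PEl p (⟨g, hgX⟩ : X) := ⟨k, by rw [← hk, ← Subgroup.orderOf_coe]⟩
  obtain ⟨R, hR⟩ := (isPGroup_zpowers hg').exists_le_sylow
  obtain ⟨x, hx⟩ := MulAction.exists_smul_eq X R (Q.subtype hQ)
  refine ⟨x, x.2, ?_⟩
  have h1 : x * (⟨g, hgX⟩ : X) * x⁻¹ ∈ ((x • R : Sylow p X) : Subgroup X) :=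
    ⟨⟨g, hgX⟩, hR (Subgroup.mem_zpowers _), rfl⟩
  rw [hx, Sylow.coe_subtype, Subgroup.mem_subgroupOf] at h1
  simpa using h1

/-- Sylow subgroups inside a subgroup are conjugate by an element of it. -/
theorem exists_conj_sylow (Q R : Sylow p G) {X : Subgroup G} (hQ : (Q : Subgroup G) ≤ X)
    (hR : (R : Subgroup G) ≤ X) :
    ∃ x ∈ X, ∀ q ∈ (Q : Subgroup G), x * q * x⁻¹ ∈ (R : Subgroup G) := by
  obtain ⟨x, hx⟩ := MulAction.exists_smul_eq X (Q.subtype hQ) (R.subtype hR)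
  refine ⟨x, x.2, fun q hq => ?_⟩
  have h1 : x * (⟨q, hQ hq⟩ : X) * x⁻¹ ∈ ((x • Q.subtype hQ : Sylow p X) : Subgroup X) := by
    refine ⟨⟨q, hQ hq⟩, ?_, rfl⟩
    simp [Subgroup.mem_subgroupOf, hq]
  rw [hx, Sylow.coe_subtype, Subgroup.mem_subgroupOf] at h1
  simpa using h1

end Cfsg.Agent.H9.SylowFix
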