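import Cfsg.Agent.H9.SylowFix.Basic

/-!
Deficits, classes and the maximality lemma for the Sylow fixed point bound.
-/

namespace Cfsg.Agent.H9.SylowFix

open MulAction Pointwise

variable {G Ω : Type*} [Group G] [MulAction G Ω] {p : ℕ}

/-- Points fixed by every element of `Q`. -/
def fixPts (Ω : Type*) [MulAction G Ω] (Q : Subgroup G) : Set Ω := {z | ∀ q ∈ Q, q • z = z}

/-- The deficit of the set `Z`. -/
noncomputable def dfct (p : ℕ) (Q : Subgroup G) (Z : Set Ω) : ℤ :=
  ((p : ℤ) - 1) * Z.ncard - (2 * (p : ℤ) - 1) * (Z ∩ fixPts Ω Q).ncard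

/-- The group attached to the point `z` over `S`. -/
def ptGrp (p : ℕ) (G : Type*) [Group G] [MulAction G Ω] (S : Set Ω) (z : Ω) : Subgroup G :=
  fixP p G (insert z S)

/-- The class of `y` in `Z`. -/
def cls (p : ℕ) (G : Type*) [Group G] [MulAction G Ω] (S : Set Ω) (Z : Set Ω) (y : Ω) : Set Ω :=
  {z ∈ Z | ptGrp p G S z = ptGrp p G S y}

/-- The orbit set of `y` under `K`. -/
def orbSet (K : Subgroup G) (y : Ω) : Set Ω := {u | ∃ k ∈ K, k • y = u}

/-- The bound holds on every orbit of every `fixP p G S`, `S` nonempty. -/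
def OrbBound (p : ℕ) (G Ω : Type*) [Group G] [MulAction G Ω] : Prop :=
  ∀ S : Set Ω, S.Nonempty → ∀ u : Ω, (∃ k ∈ fixP p G S, k • u ≠ u) → ∀ Q : Sylow p G,
    (Q : Subgroup G) ≤ fixP p G S → 0 ≤ dfct p (Q : Subgroup G) (orbSet (fixP p G S) u)

/-- The invariant attached to a set of points. -/
def Inv (p : ℕ) (G : Type*) [Group G] [MulAction G Ω] (S : Set Ω) : Prop :=
  ∀ y : Ω, (∃ h ∈ fixP p G S, h • y ≠ y) → ∃ Z : Set Ω, y ∈ Z ∧
    (∀ h ∈ fixP p G S, ∀ z ∈ Z, h • z ∈ Z) ∧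
    (∀ z ∈ Z, ∃ k ∈ fixP p G S, k • z ≠ z) ∧
    (∀ z ∈ Z, ∃ h ∈ fixP p G S, ptGrp p G S z = ptGrp p G S (h • y)) ∧
    (∀ z ∈ Z, Good p G (insert z S)) ∧
    ∀ Q : Sylow p G, (Q : Subgroup G) ≤ fixP p G S →
      dfct p (Q : Subgroup G) Z < (p : ℤ) * S.ncard * (cls p G S Z y).ncard

theorem ptGrp_le {S : Set Ω} (z : Ω) : ptGrp p G S z ≤ fixP p G S :=
  fixP_mono (Set.subset_insert z S)

theorem ptGrp_fix {S : Set Ω} {z : Ω} {g : G} (hg : g ∈ ptGrp p G S z) : g • z = z :=
  fixP_smul_eq hg (Set.mem_insert z S)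

theorem fixP_fix {S : Set Ω} {h : G} (hh : h ∈ fixP p G S) : ∀ s ∈ S, h • s = s :=
  fun _ hs => fixP_smul_eq hh hs

theorem ptGrp_smul {S : Set Ω} {h : G} (hh : h ∈ fixP p G S) (z : Ω) :
    ptGrp p G S (h • z) = (ptGrp p G S z).map (MulAut.conj h).toMonoidHom :=
  fixP_insert_smul (fixP_fix hh) z

theorem ptGrp_smul_le {S : Set Ω} {h : G} (hh : h ∈ fixP p G S) {z w : Ω}
    (hzw : ptGrp p G S z ≤ ptGrp p G S w) : ptGrp p G S (h • z) ≤ ptGrp p G S (h • w) := by
  rw [ptGrp_smul hh, ptGrp_smul hh]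
  exact Subgroup.map_mono hzw

theorem ptGrp_smul_congr {S : Set Ω} {h : G} (hh : h ∈ fixP p G S) {z w : Ω}
    (hzw : ptGrp p G S z = ptGrp p G S w) : ptGrp p G S (h • z) = ptGrp p G S (h • w) := by
  rw [ptGrp_smul hh, ptGrp_smul hh, hzw]

theorem ncard_cls_smul [Finite Ω] {S Z : Set Ω}
    (hinv : ∀ h ∈ fixP p G S, ∀ z ∈ Z, h • z ∈ Z) {h : G} (hh : h ∈ fixP p G S) (y : Ω) :
    (cls p G S Z (h • y)).ncard = (cls p G S Z y).ncard := by
  have : cls p G S Z (h • y) = (h • ·) '' cls p G S Z y := by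
    ext z
    constructor
    · rintro ⟨hz, he⟩
      refine ⟨h⁻¹ • z, ⟨hinv _ (inv_mem hh) z hz, ?_⟩, smul_inv_smul h z⟩
      have := ptGrp_smul_congr (inv_mem hh) he
      rwa [inv_smul_smul] at this
    · rintro ⟨w, ⟨hw, he⟩, rfl⟩
      exact ⟨hinv h hh w hw, ptGrp_smul_congr hh he⟩
  rw [this, Set.ncard_image_of_injective _ (MulAction.injective h)]

theorem ncard_cls_eq [Finite Ω] {S Z : Set Ω} {y z : Ω}
    (hinv : ∀ h ∈ fixP p G S, ∀ z ∈ Z, h • z ∈ Z)
    (hz : ∃ h ∈ fixP p G S, ptGrp p G S z = ptGrp p G S (h • y)) :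
    (cls p G S Z z).ncard = (cls p G S Z y).ncard := by
  obtain ⟨h, hh, he⟩ := hz
  rw [← ncard_cls_smul hinv hh y]
  congr 1
  simp [cls, he]

theorem dfct_union [Finite Ω] (Q : Subgroup G) {A B : Set Ω} (h : Disjoint A B) :
    dfct p Q (A ∪ B) = dfct p Q A + dfct p Q B := by
  have h' : Disjoint (A ∩ fixPts Ω Q) (B ∩ fixPts Ω Q) :=
    h.mono Set.inter_subset_left Set.inter_subset_left
  simp only [dfct, Set.union_inter_distrib_right, Set.ncard_union_eq h, Set.ncard_union_eq h']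
  push_cast
  ring

theorem mem_orbSet_self (K : Subgroup G) (u : Ω) : u ∈ orbSet K u := ⟨1, K.one_mem, one_smul G u⟩

theorem dfct_nonneg_of_invariant [Finite Ω] (hb : OrbBound p G Ω) {S : Set Ω} (hS : S.Nonempty)
    (Q : Sylow p G) (hQ : (Q : Subgroup G) ≤ fixP p G S) :
    ∀ (n : ℕ) (W : Set Ω), W.ncard ≤ n → (∀ h ∈ fixP p G S, ∀ z ∈ W, h • z ∈ W) →
      (∀ z ∈ W, ∃ k ∈ fixP p G S, k • z ≠ z) → 0 ≤ dfct p (Q : Subgroup G) W
  | 0, W, hW, _, _ => by
    have : W = ∅ := (Set.ncard_eq_zero (Set.toFinite W)).1 (by omega)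
    simp [this, dfct]
  | n + 1, W, hW, hinv, hmov => by
    rcases W.eq_empty_or_nonempty with rfl | ⟨u, hu⟩
    · simp [dfct]
    set O := orbSet (fixP p G S) u
    have hOW : O ⊆ W := by
      rintro _ ⟨k, hk, rfl⟩
      exact hinv k hk u hu
    have hsplit : W = O ∪ (W \ O) := (Set.union_diff_cancel hOW).symm
    rw [hsplit, dfct_union _ disjoint_sdiff_self_right]
    have h1 : 0 ≤ dfct p (Q : Subgroup G) O := hb S hS u (hmov u hu) Q hQ
    have hlt : (W \ O).ncard < W.ncard :=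
      Set.ncard_lt_ncard ⟨Set.diff_subset, fun h => (h hu).2 (mem_orbSet_self _ u)⟩
    have h2 := dfct_nonneg_of_invariant hb hS Q hQ n (W \ O) (by omega)
      (fun h hh z hz => ⟨hinv h hh z hz.1, fun ⟨k, hk, hku⟩ => hz.2
        ⟨h⁻¹ * k, mul_mem (inv_mem hh) hk, by rw [mul_smul, hku, inv_smul_smul]⟩⟩)
      (fun z hz => hmov z hz.1)
    exact add_nonneg h1 h2

variable [Fact p.Prime] [Finite G] [Finite Ω]

/-- Classes moved by the Sylow subgroup `Q`: there are at least `p` of them. -/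
theorem orbit_classes {S Z W : Set Ω} {a y : Ω} (Q : Sylow p G)
    (hQS : (Q : Subgroup G) ≤ fixP p G S) (haW : a ∈ W) (hWZ : W ⊆ Z)
    (hWinv : ∀ q ∈ (Q : Subgroup G), ∀ z ∈ W, q • z ∈ W)
    (hWcls : ∀ z ∈ W, ∀ z' ∈ Z, ptGrp p G S z' = ptGrp p G S z → z' ∈ W)
    (hgood : ∀ z ∈ Z, Good p G (insert z S))
    (hinv : ∀ h ∈ fixP p G S, ∀ z ∈ Z, h • z ∈ Z)
    (hconj : ∀ z ∈ Z, ∃ h ∈ fixP p G S, ptGrp p G S z = ptGrp p G S (h • y))
    (hq : ∃ q ∈ (Q : Subgroup G), q • a ≠ a) :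
    p * (cls p G S Z y).ncard ≤ (W \ fixPts Ω (Q : Subgroup G)).ncard := by
  classical
  -- a `Q`-translate of a point with the same group is the point itself
  have key : ∀ c ∈ Z, ∀ q ∈ (Q : Subgroup G), ptGrp p G S (q • c) = ptGrp p G S c → q • c = c := by
    intro c hc q hq' he
    obtain ⟨R, hR⟩ := hgood c hc
    have hqX : q ∈ ptGrp p G S c := by
      refine mem_of_normalizes R (sylow_le_fixP R hR) (pel_of_mem Q.2 hq') fun x hx => ?_
      have : q * x * q⁻¹ ∈ (ptGrp p G S c).map (MulAut.conj q).toMonoidHom := ⟨x, hx, rfl⟩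
      rw [← ptGrp_smul (hQS hq') c, he] at this
      exact this
    exact ptGrp_fix hqX
  let A : Set Ω := MulAction.orbit (Q : Subgroup G) a
  have hAW : ∀ c ∈ A, c ∈ W := by
    rintro _ ⟨q, rfl⟩
    exact hWinv q q.2 a haW
  have hAcard : p ≤ A.ncard := by
    obtain ⟨m, hm⟩ := Q.2.card_orbit a
    have hm' : A.ncard = p ^ m := by rw [← Nat.card_coe_set_eq]; exact hm
    have hm0 : m ≠ 0 := by
      rintro rfl
      obtain ⟨q, hq', hne⟩ := hq
      rw [pow_zero] at hm'
      obtain ⟨c, hc⟩ := Set.ncard_eq_one.1 hm'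
      have h1 : a ∈ A := MulAction.mem_orbit_self a
      have h2 : q • a ∈ A := ⟨⟨q, hq'⟩, rfl⟩
      rw [hc, Set.mem_singleton_iff] at h1 h2
      exact hne (h2.trans h1.symm)
    rw [hm']
    exact Nat.le_self_pow hm0 p
  have hAmov : ∀ c ∈ A, c ∉ fixPts Ω (Q : Subgroup G) := by
    rintro _ ⟨⟨r, hr⟩, rfl⟩ hfix
    obtain ⟨q, hq', hne⟩ := hq
    have h1 : r • a = a := by
      have := hfix r⁻¹ (inv_mem hr)
      change r⁻¹ • (r • a) = r • a at this
      rw [inv_smul_smul] at this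
      exact this.symm
    have h2 := hfix q hq'
    change q • (r • a) = r • a at h2
    rw [h1] at h2
    exact hne h2
  haveI := Fintype.ofFinite Ω
  let f : Ω → Finset Ω := fun c => (cls p G S Z c).toFinset
  have hdisj : (A.toFinset : Set Ω).PairwiseDisjoint f := by
    intro c hc c' hc' hne
    simp only [Set.coe_toFinset] at hc hc'
    simp only [Function.onFun, Finset.disjoint_left, f, Set.mem_toFinset]
    rintro z ⟨-, hzc⟩ ⟨-, hzc'⟩
    obtain ⟨r, rfl⟩ := hc
    obtain ⟨r', rfl⟩ := hc'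
    refine hne ?_
    have hm : (r' : G) * (r : G)⁻¹ ∈ (Q : Subgroup G) := mul_mem r'.2 (inv_mem r.2)
    have he : ((r' : G) * (r : G)⁻¹) • ((r : G) • a) = (r' : G) • a := by
      rw [mul_smul, inv_smul_smul]
    have := key ((r : G) • a) (hWZ (hWinv _ r.2 a haW)) _ hm
      (by rw [he]; exact (hzc'.symm.trans hzc))
    rw [he] at this
    exact this.symm
  have hsub : A.toFinset.biUnion f ⊆ (W \ fixPts Ω (Q : Subgroup G)).toFinset := by
    intro z hz
    simp only [Finset.mem_biUnion, Set.mem_toFinset, f] at hz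
    obtain ⟨c, hc, hzZ, hzc⟩ := hz
    rw [Set.mem_toFinset]
    refine ⟨hWcls c (hAW c hc) z hzZ hzc, fun hfix => hAmov c hc fun q hq' => ?_⟩
    have : q ∈ ptGrp p G S z :=
      mem_fixP (fun s hs => by
        rcases hs with rfl | hs
        · exact hfix q hq'
        · exact fixP_smul_eq (hQS hq') hs) (pel_of_mem Q.2 hq')
    exact ptGrp_fix (hzc ▸ this : q ∈ ptGrp p G S c)
  have hcard := Finset.card_le_card hsub
  rw [Finset.card_biUnion hdisj] at hcard
  have hconst : ∀ c ∈ A.toFinset, (f c).card = (cls p G S Z y).ncard := by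
    intro c hc
    rw [Set.mem_toFinset] at hc
    rw [← ncard_cls_eq hinv (hconj c (hWZ (hAW c hc))), Set.ncard_eq_toFinset_card']
  rw [Finset.sum_const_nat hconst, ← Set.ncard_eq_toFinset_card',
    ← Set.ncard_eq_toFinset_card'] at hcard
  exact le_trans (Nat.mul_le_mul_right _ hAcard) hcard

/-- Point groups over `S` are maximal among themselves. -/
theorem maximality (hb : OrbBound p G Ω) {S : Set Ω} (hSc : S.ncard + 1 ≤ p) (hInv : Inv p G S)
    {x y : Ω} (hx : ∃ h ∈ fixP p G S, h • x ≠ x) (hy : ∃ h ∈ fixP p G S, h • y ≠ y)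
    (hS : S.Nonempty) (hle : ptGrp p G S x ≤ ptGrp p G S y) :
    ptGrp p G S x = ptGrp p G S y := by
  classical
  by_contra hne
  haveI := Fintype.ofFinite Ω
  obtain ⟨Z, hxZ, hinv, -, hconj, hgood, hdef⟩ := hInv x hx
  obtain ⟨Zy, hyZy, -, -, -, hgoody, -⟩ := hInv y hy
  obtain ⟨Q, hQ⟩ := hgoody y hyZy
  have hQy : (Q : Subgroup G) ≤ ptGrp p G S y := sylow_le_fixP Q hQ
  have hQS : (Q : Subgroup G) ≤ fixP p G S := le_trans hQy (ptGrp_le y)
  have hyF : y ∈ fixPts Ω (Q : Subgroup G) := fun q hq => hQ q hq y (Set.mem_insert y S)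
  set O := orbSet (fixP p G S) y with hO
  have hOinv : ∀ h ∈ fixP p G S, ∀ u ∈ O, h • u ∈ O := by
    rintro h hh _ ⟨k, hk, rfl⟩
    exact ⟨h * k, mul_mem hh hk, mul_smul h k y⟩
  let R : Ω → Ω → Prop := fun z u => ptGrp p G S z ≤ ptGrp p G S u
  let Zs := Z.toFinset
  let Os := O.toFinset
  -- constant row sums
  have hrow : ∀ z ∈ Zs, (Finset.bipartiteAbove R Os z).card = (Finset.bipartiteAbove R Os x).card := by
    intro z hz
    obtain ⟨h, hh, he⟩ := hconj z (Set.mem_toFinset.1 hz)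
    symm
    refine Finset.card_nbij' (fun u => h • u) (fun u => h⁻¹ • u) ?_ ?_ ?_ ?_
    · intro u hu
      simp only [Finset.bipartiteAbove, Finset.mem_filter, Os, Set.mem_toFinset, R,
        Finset.mem_coe] at hu ⊢
      exact ⟨hOinv h hh u hu.1, he ▸ ptGrp_smul_le hh hu.2⟩
    · intro u hu
      simp only [Finset.bipartiteAbove, Finset.mem_filter, Os, Set.mem_toFinset, R,
        Finset.mem_coe] at hu ⊢
      refine ⟨hOinv _ (inv_mem hh) u hu.1, ?_⟩
      have := ptGrp_smul_le (inv_mem hh) (he ▸ hu.2 : ptGrp p G S (h • x) ≤ ptGrp p G S u)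
      rwa [inv_smul_smul] at this
    · intro u _
      exact inv_smul_smul h u
    · intro u _
      exact smul_inv_smul h u
  have hcol : ∀ u ∈ Os, (Finset.bipartiteBelow R Zs u).card = (Finset.bipartiteBelow R Zs y).card := by
    intro u hu
    obtain ⟨h, hh, rfl⟩ := Set.mem_toFinset.1 hu
    symm
    refine Finset.card_nbij' (fun z => h • z) (fun z => h⁻¹ • z) ?_ ?_ ?_ ?_
    · intro z hz
      simp only [Finset.bipartiteBelow, Finset.mem_filter, Zs, Set.mem_toFinset, R,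
        Finset.mem_coe] at hz ⊢
      exact ⟨hinv h hh z hz.1, ptGrp_smul_le hh hz.2⟩
    · intro z hz
      simp only [Finset.bipartiteBelow, Finset.mem_filter, Zs, Set.mem_toFinset, R,
        Finset.mem_coe] at hz ⊢
      refine ⟨hinv _ (inv_mem hh) z hz.1, ?_⟩
      have := ptGrp_smul_le (inv_mem hh) hz.2
      rwa [inv_smul_smul] at this
    · intro z _
      exact inv_smul_smul h z
    · intro z _
      exact smul_inv_smul h z
  set w := (Finset.bipartiteAbove R Os x).card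
  set W := (Finset.bipartiteBelow R Zs y).card
  set b := (cls p G S Z x).ncard
  have htot : Zs.card * w = Os.card * W := by
    have h0 := Finset.sum_card_bipartiteAbove_eq_sum_card_bipartiteBelow R (s := Zs) (t := Os)
    rwa [Finset.sum_const_nat hrow, Finset.sum_const_nat hcol] at h0
  let ZF := Zs.filter (· ∈ fixPts Ω (Q : Subgroup G))
  let OF := Os.filter (· ∈ fixPts Ω (Q : Subgroup G))
  have hrowF : ∀ z ∈ ZF, (Finset.bipartiteAbove R OF z).card = w := by
    intro z hz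
    rw [Finset.mem_filter] at hz
    rw [← hrow z hz.1]
    congr 1
    ext u
    simp only [Finset.bipartiteAbove, Finset.mem_filter, OF, and_congr_left_iff,
      and_iff_left_iff_imp]
    intro hzu _ q hq
    refine ptGrp_fix (hzu (mem_fixP (fun s hs => ?_) (pel_of_mem Q.2 hq)))
    rcases hs with rfl | hs
    · exact hz.2 q hq
    · exact fixP_smul_eq (hQS hq) hs
  -- every point of `OF` has at least `p * b` neighbours which are moved
  have hmoved : ∀ u ∈ OF, (Finset.bipartiteBelow R ZF u).card + p * b ≤ W := by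
    intro u hu
    rw [Finset.mem_filter, Set.mem_toFinset] at hu
    obtain ⟨h, hh, rfl⟩ := hu.1
    have hQu : (Q : Subgroup G) ≤ ptGrp p G S (h • y) := fun q hq =>
      mem_fixP (fun s hs => by
        rcases hs with rfl | hs
        · exact hu.2 q hq
        · exact fixP_smul_eq (hQS hq) hs) (pel_of_mem Q.2 hq)
    let V : Set Ω := {z ∈ Z | ptGrp p G S z ≤ ptGrp p G S (h • y)}
    have hz0 : h • x ∈ V := ⟨hinv h hh x hxZ, ptGrp_smul_le hh hle⟩
    have hVinv : ∀ q ∈ ptGrp p G S (h • y), ∀ z ∈ V, q • z ∈ V := by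
      intro q hq z hz
      refine ⟨hinv q (ptGrp_le _ hq) z hz.1, ?_⟩
      have := ptGrp_smul_le (ptGrp_le _ hq) hz.2
      rwa [ptGrp_fix hq] at this
    have hex : ∃ a ∈ V, a ∉ fixPts Ω (Q : Subgroup G) := by
      by_contra hall
      push_neg at hall
      have hsub : ptGrp p G S (h • y) ≤ ptGrp p G S (h • x) := by
        rw [ptGrp, fixP_le_iff]
        intro g hg hp
        have hgm : g ∈ ptGrp p G S (h • y) := mem_fixP hg hp
        obtain ⟨k, hk, hkQ⟩ := exists_conj_mem Q hQu hgm hp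
        refine mem_fixP (fun s hs => ?_) hp
        rcases hs with rfl | hs
        · have h1 := hall _ (hVinv k hk _ hz0) _ hkQ
          rw [mul_smul, mul_smul, inv_smul_smul, smul_left_cancel_iff] at h1
          exact h1
        · exact hg s (Set.mem_insert_of_mem _ hs)
      have hboth := le_antisymm (ptGrp_smul_le hh hle) hsub
      rw [ptGrp_smul hh, ptGrp_smul hh] at hboth
      exact hne (Subgroup.map_injective (MulAut.conj h).injective hboth)
    obtain ⟨a, haV, haF⟩ := hex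
    have hq : ∃ q ∈ (Q : Subgroup G), q • a ≠ a := by
      simpa [fixPts] using haF
    have hcount := orbit_classes (y := x) Q hQS haV (fun z hz => hz.1)
      (fun q hq z hz => hVinv q (hQu hq) z hz)
      (fun z hz z' hz' he => ⟨hz', he ▸ hz.2⟩) hgood hinv hconj hq
    change p * b ≤ _ at hcount
    have hW : W = (Finset.bipartiteBelow R Zs (h • y)).card :=
      (hcol _ (Set.mem_toFinset.2 hu.1)).symm
    have hV : V.ncard = W := by
      rw [hW, Set.ncard_eq_toFinset_card']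
      congr 1
      ext z
      simp [V, Finset.bipartiteBelow, Zs, R]
    have hVF : (V ∩ fixPts Ω (Q : Subgroup G)).ncard = (Finset.bipartiteBelow R ZF (h • y)).card := by
      rw [Set.ncard_eq_toFinset_card']
      congr 1
      ext z
      simp [V, Finset.bipartiteBelow, Zs, ZF, R]
      tauto
    have := Set.ncard_inter_add_ncard_diff_eq_ncard V (fixPts Ω (Q : Subgroup G))
    omega
  have hpart : ZF.card * w + OF.card * (p * b) ≤ OF.card * W := by
    have h0 := Finset.sum_card_bipartiteAbove_eq_sum_card_bipartiteBelow R (s := ZF) (t := OF)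
    rw [Finset.sum_const_nat hrowF] at h0
    rw [h0]
    calc ∑ u ∈ OF, (Finset.bipartiteBelow R ZF u).card + OF.card * (p * b)
        = ∑ u ∈ OF, ((Finset.bipartiteBelow R ZF u).card + p * b) := by
          rw [Finset.sum_add_distrib, Finset.sum_const, smul_eq_mul]
      _ ≤ ∑ _u ∈ OF, W := Finset.sum_le_sum hmoved
      _ = OF.card * W := by rw [Finset.sum_const, smul_eq_mul]
  have hOFne : y ∈ OF := Finset.mem_filter.2 ⟨Set.mem_toFinset.2 (mem_orbSet_self _ y), hyF⟩
  have hWpb : p * b ≤ W := le_trans (Nat.le_add_left _ _) (hmoved y hOFne)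
  have hratio : 0 ≤ dfct p (Q : Subgroup G) O := hb S hS y hy Q hQS
  have hOc : O.ncard = Os.card := Set.ncard_eq_toFinset_card' O
  have hOFc : (O ∩ fixPts Ω (Q : Subgroup G)).ncard = OF.card := by
    rw [Set.ncard_eq_toFinset_card']
    congr 1
    ext u
    simp [Os, OF]
  have hZc : Z.ncard = Zs.card := Set.ncard_eq_toFinset_card' Z
  have hZFc : (Z ∩ fixPts Ω (Q : Subgroup G)).ncard = ZF.card := by
    rw [Set.ncard_eq_toFinset_card']
    congr 1
    ext u
    simp [Zs, ZF]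
  have hd := hdef Q hQS
  simp only [dfct, hOc, hOFc] at hratio
  simp only [dfct, hZc, hZFc] at hd
  have hwle : w ≤ Os.card := Finset.card_le_card (Finset.filter_subset _ _)
  have hb1 : 1 ≤ b := (Set.ncard_pos (Set.toFinite _)).2 ⟨x, hxZ, rfl⟩
  have hd1 : 1 ≤ Os.card := Finset.card_pos.2 ⟨y, Set.mem_toFinset.2 (mem_orbSet_self _ y)⟩
  set D : ℤ := ((p : ℤ) - 1) * Zs.card - (2 * (p : ℤ) - 1) * ZF.card with hD
  have hp2 : (2 : ℤ) ≤ p := by exact_mod_cast (Fact.out : p.Prime).two_le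
  have h1 : (Zs.card : ℤ) * w = Os.card * W := by exact_mod_cast htot
  have h2 : (ZF.card : ℤ) * w + OF.card * (p * b) ≤ OF.card * W := by exact_mod_cast hpart
  have h3 : (p : ℤ) * b ≤ W := by exact_mod_cast hWpb
  have h4 : ((p : ℤ) - 1) * Os.card * (p * b) ≤ D * w := by
    have e1 : (2 * (p : ℤ) - 1) * (ZF.card * w) ≤ ((p : ℤ) - 1) * Os.card * (W - p * b) := by
      calc (2 * (p : ℤ) - 1) * (ZF.card * w)
          ≤ (2 * (p : ℤ) - 1) * (OF.card * (W - p * b)) :=
            mul_le_mul_of_nonneg_left (by linarith) (by linarith)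
        _ = (2 * (p : ℤ) - 1) * OF.card * (W - p * b) := by ring
        _ ≤ ((p : ℤ) - 1) * Os.card * (W - p * b) :=
            mul_le_mul_of_nonneg_right (by linarith) (by linarith)
    rw [hD]
    nlinarith [e1, h1]
  have hpos : (0 : ℤ) < ((p : ℤ) - 1) * Os.card * (p * b) := by
    have : (1 : ℤ) ≤ Os.card := by exact_mod_cast hd1
    have : (1 : ℤ) ≤ b := by exact_mod_cast hb1
    have : (0 : ℤ) < (p : ℤ) - 1 := by linarith
    positivity
  have hD0 : 0 < D := by
    by_contra hD0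
    nlinarith [mul_nonpos_of_nonpos_of_nonneg (not_lt.1 hD0) (Nat.cast_nonneg (α := ℤ) w)]
  have h5 : D * w ≤ D * Os.card := mul_le_mul_of_nonneg_left (by exact_mod_cast hwle) hD0.le
  have h6 : ((p : ℤ) - 1) * (p * b) ≤ D := by
    refine le_of_mul_le_mul_right ?_ (show (0 : ℤ) < Os.card by exact_mod_cast hd1)
    calc ((p : ℤ) - 1) * (p * b) * Os.card = ((p : ℤ) - 1) * Os.card * (p * b) := by ring
      _ ≤ D * Os.card := h4.trans h5
  have h7 : (S.ncard : ℤ) + 1 ≤ p := by exact_mod_cast hSc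
  have : (p : ℤ) * S.ncard * b ≤ ((p : ℤ) - 1) * (p * b) := by
    have : (0 : ℤ) ≤ (p : ℤ) * b := by positivity
    calc (p : ℤ) * S.ncard * b = (S.ncard : ℤ) * (p * b) := by ring
      _ ≤ ((p : ℤ) - 1) * (p * b) := mul_le_mul_of_nonneg_right (by linarith) this
  linarith

end Cfsg.Agent.H9.SylowFix
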