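import Cfsg.Agent.H9.SylowFix.Step

/-!
The fixed point bound `(2p - 1) f ≤ (p - 1) n`.
-/

namespace Cfsg.Agent.H9.SylowFix

open MulAction Pointwise

section Main

variable {G Ω : Type*} [Group G] [MulAction G Ω] [Finite G] [Finite Ω] {p : ℕ} [Fact p.Prime]

theorem exists_cycle {g : G} (hg : PEl p g) {x : Ω} (hx : g • x ≠ x) :
    ∃ h : G, PEl p h ∧ h • x ≠ x ∧ h ^ p • x = x := by
  classical
  obtain ⟨k, hk⟩ := hg
  have hex : ∃ j, (g ^ p ^ j) • x = x :=
    ⟨k, by rw [← hk, pow_orderOf_eq_one, one_smul]⟩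
  have h0 : Nat.find hex ≠ 0 := fun h => by
    have := Nat.find_spec hex
    rw [h, pow_zero, pow_one] at this
    exact hx this
  obtain ⟨j, hj⟩ := Nat.exists_eq_succ_of_ne_zero h0
  refine ⟨g ^ p ^ j, pel_pow ⟨k, hk⟩ _, Nat.find_min hex (by omega), ?_⟩
  rw [← pow_mul, ← pow_succ]
  simpa [hj] using Nat.find_spec hex

theorem dfct_univ_eq (Q R : Sylow p G) :
    dfct p (Q : Subgroup G) (Set.univ : Set Ω) = dfct p (R : Subgroup G) (Set.univ : Set Ω) := by
  obtain ⟨g, rfl⟩ := MulAction.exists_smul_eq G Q R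
  have : fixPts Ω ((g • Q : Sylow p G) : Subgroup G) = (g • ·) '' fixPts Ω (Q : Subgroup G) := by
    ext z
    constructor
    · intro hz
      refine ⟨g⁻¹ • z, fun q hq => ?_, smul_inv_smul g z⟩
      have h1 : g * q * g⁻¹ ∈ ((g • Q : Sylow p G) : Subgroup G) := by
        rw [Sylow.coe_subgroup_smul]
        exact ⟨q, hq, rfl⟩
      have h2 := hz _ h1
      rw [mul_smul, mul_smul] at h2
      exact smul_left_cancel g (h2.trans (smul_inv_smul g z).symm)
    · rintro ⟨w, hw, rfl⟩ q hq
      obtain ⟨q₀, hq₀, rfl⟩ := mem_smul_sylow hq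
      simp only [mul_smul, inv_smul_smul, hw q₀ hq₀]
  simp only [dfct, Set.univ_inter, this, Set.ncard_image_of_injective _ (MulAction.injective g)]

/-- The bound, given the bound on all proper orbits. -/
theorem main_aux [IsPretransitive G Ω] (htop : fixP p G (∅ : Set Ω) = ⊤)
    (hmove : ∃ (g : G) (x : Ω), g • x ≠ x) (hb : OrbBound p G Ω) (P : Sylow p G) :
    0 ≤ dfct p (P : Subgroup G) (Set.univ : Set Ω) := by
  classical
  by_contra hlt
  push_neg at hlt
  have hall : ∀ Q : Sylow p G, dfct p (Q : Subgroup G) (Set.univ : Set Ω) < 0 := fun Q => by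
    rwa [dfct_univ_eq Q P]
  have hF : ∃ z₀, z₀ ∈ fixPts Ω (P : Subgroup G) := by
    by_contra hne
    push_neg at hne
    have hempty : fixPts Ω (P : Subgroup G) = ∅ := Set.eq_empty_iff_forall_notMem.2 hne
    simp only [dfct, hempty, Set.inter_empty, Set.ncard_empty, Nat.cast_zero, mul_zero,
      sub_zero] at hlt
    have : (1 : ℤ) ≤ p := by exact_mod_cast (Fact.out : p.Prime).one_le
    nlinarith [Nat.cast_nonneg (α := ℤ) (Set.univ : Set Ω).ncard]
  obtain ⟨z₀, hz₀⟩ := hF
  have hmem : ∀ g : G, g ∈ fixP p G (∅ : Set Ω) := fun g => htop ▸ Subgroup.mem_top g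
  have hbase : Inv p G (∅ : Set Ω) := by
    intro y _
    refine ⟨Set.univ, Set.mem_univ y, fun _ _ _ _ => Set.mem_univ _, fun z _ => ?_, fun z _ => ?_,
      fun z _ => ?_, fun Q _ => ?_⟩
    · by_contra hfix
      push_neg at hfix
      obtain ⟨g, x, hgx⟩ := hmove
      obtain ⟨h, rfl⟩ := exists_smul_eq G z x
      exact hgx (by rw [← mul_smul, hfix _ (hmem _), hfix _ (hmem _)])
    · obtain ⟨h, rfl⟩ := exists_smul_eq G y z
      exact ⟨h, hmem h, rfl⟩
    · obtain ⟨h, rfl⟩ := exists_smul_eq G z₀ z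
      refine ⟨h • P, fun q hq s hs => ?_⟩
      obtain ⟨q₀, hq₀, rfl⟩ := mem_smul_sylow hq
      simp only [Set.mem_insert_iff, Set.mem_empty_iff_false, or_false] at hs
      subst hs
      simp only [mul_smul, inv_smul_smul, hz₀ q₀ hq₀]
    · simpa using hall Q
  have key : ∀ S : Finset Ω, S.card ≤ p →
      Good p G (S : Set Ω) ∧ (S.card + 1 ≤ p → Inv p G (S : Set Ω)) := by
    intro S
    induction S using Finset.induction_on with
    | empty => exact fun _ => ⟨⟨P, fun q _ s hs => by simp at hs⟩, fun _ => by simpa using hbase⟩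
    | @insert a s ha ih =>
      intro hcard
      rw [Finset.card_insert_of_notMem ha] at hcard ⊢
      obtain ⟨⟨Q, hQ⟩, hI⟩ := ih (by omega)
      have hInv := hI hcard
      rw [Finset.coe_insert]
      by_cases hfix : ∀ h ∈ fixP p G (s : Set Ω), h • a = a
      · refine ⟨⟨Q, fun q hq t ht => ?_⟩, fun _ => inv_of_fixed hInv hfix⟩
        rcases ht with rfl | ht
        · exact hfix q (sylow_le_fixP Q hQ hq)
        · exact hQ q hq t ht
      · push_neg at hfix
        obtain ⟨Z, haZ, -, -, -, hgood, -⟩ := hInv a hfix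
        refine ⟨hgood a haZ, fun hc => ?_⟩
        have hsc : (s : Set Ω).ncard = s.card := Set.ncard_coe_finset s
        refine inv_step hb hInv ?_ hfix (by omega)
        rcases s.eq_empty_or_nonempty with rfl | hne
        · intro u v _ _ hle
          obtain ⟨h, rfl⟩ := exists_smul_eq G u v
          refine Subgroup.eq_of_le_of_card_ge hle ?_
          rw [ptGrp_smul (h := h) (by simpa using hmem h),
            Subgroup.card_map_of_injective (MulAut.conj h).injective]
        · intro u v hu hv hle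
          exact maximality hb (by omega) hInv hu hv (by exact_mod_cast hne) hle
  -- a cycle of length `p`
  have hel : ∃ (g : G) (x : Ω), PEl p g ∧ g • x ≠ x := by
    by_contra hno
    push_neg at hno
    obtain ⟨g, x, hgx⟩ := hmove
    have hle : fixP p G (∅ : Set Ω) ≤ stabilizer G x := fixP_le_iff.2 fun h _ hh => hno h x hh
    exact hgx (hle (hmem g))
  obtain ⟨g, x, hg, hgx⟩ := hel
  obtain ⟨h, hh, hhx, hhp⟩ := exists_cycle hg hgx
  let O : Finset Ω := (Finset.range p).image fun i => h ^ i • x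
  have hOcard : O.card ≤ p := Finset.card_image_le.trans (Finset.card_range p).le
  obtain ⟨⟨Q, hQ⟩, -⟩ := key O hOcard
  have hperm : ∀ i : ℕ, h ^ i • x ∈ O := by
    intro i
    refine Finset.mem_image.2 ⟨i % p, Finset.mem_range.2 (Nat.mod_lt _ (Fact.out : p.Prime).pos), ?_⟩
    conv_rhs => rw [← Nat.mod_add_div i p, pow_add, mul_smul, pow_mul]
    congr 1
    generalize i / p = m
    induction m with
    | zero => simp
    | succ m ih => rw [pow_succ, mul_smul, hhp, ← ih]
  have hsurj : ∀ t ∈ (O : Set Ω), ∃ s ∈ (O : Set Ω), h • s = t := by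
    intro t ht
    obtain ⟨i, -, rfl⟩ := Finset.mem_image.1 ht
    refine ⟨h ^ (i + (p - 1)) • x, hperm _, ?_⟩
    rw [← mul_smul, ← pow_succ', show i + (p - 1) + 1 = i + p by
      have := (Fact.out : p.Prime).pos; omega, pow_add, mul_smul, hhp]
  have hin : h ∈ fixP p G (O : Set Ω) :=
    mem_of_normalizes Q (sylow_le_fixP Q hQ) hh fun z hz => fixP_conj_mem hsurj hz
  exact hhx (fixP_smul_eq hin (by simpa using hperm 0))

end Main

/-- Transitive groups generated by `p`-elements: `(2p - 1) f ≤ (p - 1) n`. -/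
theorem dfct_univ_nonneg_aux.{u, v} (p : ℕ) [Fact p.Prime] : ∀ (n : ℕ) (G : Type u) (Ω : Type v)
    [Group G] [MulAction G Ω] [Finite G] [Finite Ω] [IsPretransitive G Ω], Nat.card Ω ≤ n →
    fixP p G (∅ : Set Ω) = ⊤ → (∃ (g : G) (x : Ω), g • x ≠ x) → ∀ P : Sylow p G,
      0 ≤ dfct p (P : Subgroup G) (Set.univ : Set Ω) := by
  intro n
  induction n using Nat.strong_induction_on with
  | _ n ih =>
    intro G Ω _ _ _ _ _ hn htop hmove P
    refine main_aux htop hmove (fun S hS u hu Q hQ => ?_) P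
    set X := fixP p G S
    obtain ⟨k, hk, hku⟩ := hu
    let O : Set Ω := MulAction.orbit X u
    have hO : orbSet X u = O := by
      ext z
      constructor
      · rintro ⟨g, hg, rfl⟩
        exact ⟨⟨g, hg⟩, rfl⟩
      · rintro ⟨⟨g, hg⟩, rfl⟩
        exact ⟨g, hg, rfl⟩
    have hlt : Nat.card O < Nat.card Ω := by
      rw [Nat.card_coe_set_eq, ← Set.ncard_univ]
      refine Set.ncard_lt_ncard ⟨Set.subset_univ _, fun hall => ?_⟩
      obtain ⟨s, hs⟩ := hS
      obtain ⟨⟨g, hg⟩, hgs⟩ := hall (Set.mem_univ s)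
      change g • u = s at hgs
      have hus : u = s := by
        rw [← smul_left_cancel_iff g, hgs, fixP_smul_eq hg hs]
      exact hku (hus ▸ fixP_smul_eq hk hs)
    haveI : Finite O := Subtype.finite
    have htopX : fixP p X (∅ : Set (MulAction.orbit X u)) = ⊤ := by
      refine top_unique ?_
      refine (Subgroup.closure_closure_coe_preimage
        (k := {g : G | (∀ s ∈ S, g • s = s) ∧ PEl p g})).ge.trans ?_
      refine Subgroup.closure_mono ?_
      rintro g ⟨-, m, hm⟩
      exact ⟨by simp, m, (Subgroup.orderOf_coe g).symm.trans hm⟩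
    have h := ih (Nat.card O) (lt_of_lt_of_le hlt hn) X (MulAction.orbit X u) le_rfl htopX
      ⟨⟨k, hk⟩, ⟨u, MulAction.mem_orbit_self u⟩, fun h => hku (congrArg Subtype.val h)⟩
      (Q.subtype hQ)
    rw [hO]
    have h1 : O.ncard = (Set.univ : Set (MulAction.orbit X u)).ncard := by
      rw [Set.ncard_univ, Nat.card_coe_set_eq]
    have h2 : (O ∩ fixPts Ω (Q : Subgroup G)).ncard =
        ((Set.univ : Set (MulAction.orbit X u)) ∩
          fixPts (MulAction.orbit X u) ((Q.subtype hQ : Sylow p X) : Subgroup X)).ncard := by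
      rw [Set.univ_inter, ← Set.ncard_image_of_injective _ Subtype.val_injective]
      congr 1
      ext z
      constructor
      · rintro ⟨hz, hf⟩
        exact ⟨⟨z, hz⟩, fun q hq => Subtype.ext (hf q.1 hq), rfl⟩
      · rintro ⟨w, hw, rfl⟩
        exact ⟨w.2, fun q hq => congrArg Subtype.val (hw ⟨q, hQ hq⟩ hq)⟩
    simp only [dfct] at h ⊢
    rw [h1, h2]
    exact h

theorem dfct_univ_nonneg {G Ω : Type*} [Group G] [MulAction G Ω] [Finite G] [Finite Ω]
    [IsPretransitive G Ω] {p : ℕ} [Fact p.Prime] (htop : fixP p G (∅ : Set Ω) = ⊤)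
    (hmove : ∃ (g : G) (x : Ω), g • x ≠ x) (P : Sylow p G) :
    0 ≤ dfct p (P : Subgroup G) (Set.univ : Set Ω) :=
  dfct_univ_nonneg_aux p (Nat.card Ω) G Ω le_rfl htop hmove P

end Cfsg.Agent.H9.SylowFix
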