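import Cfsg.Agent.H9.SylowFix.Main

/-!
Corollaries: number of orbits of a Sylow subgroup, number of Sylow subgroups of a subgroup.
-/

namespace Cfsg.Agent.H9.SylowFix

open MulAction Pointwise

variable {G Ω : Type*} [Group G] [MulAction G Ω] [Finite G] [Finite Ω] {p : ℕ} [Fact p.Prime]

theorem fixP_empty_normal : (fixP p G (∅ : Set Ω)).Normal := by
  constructor
  intro n hn g
  exact fixP_conj_mem (T := (∅ : Set Ω)) (fun t ht => (Set.notMem_empty t ht).elim) hn

/-- The bound for any faithful transitive group of order divisible by `p`. -/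
theorem dfct_nonneg_of_faithful [IsPretransitive G Ω] [FaithfulSMul G Ω] (hpG : p ∣ Nat.card G)
    (P : Sylow p G) : 0 ≤ dfct p (P : Subgroup G) (Set.univ : Set Ω) := by
  classical
  set X := fixP p G (∅ : Set Ω) with hX
  have hPX : (P : Subgroup G) ≤ X := sylow_le_fixP P (by simp)
  haveI : X.Normal := fixP_empty_normal
  have hnofix : ∀ u : Ω, ∃ k ∈ X, k • u ≠ u := by
    intro u
    by_contra hall
    push_neg at hall
    apply P.ne_bot_of_dvd_card hpG
    rw [eq_bot_iff]
    intro q hq
    rw [Subgroup.mem_bot]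
    refine eq_of_smul_eq_smul fun z : Ω => ?_
    obtain ⟨g, rfl⟩ := exists_smul_eq G u z
    have := hall (g⁻¹ * q * g⁻¹⁻¹) (Subgroup.Normal.conj_mem inferInstance q (hPX hq) g⁻¹)
    rw [inv_inv, mul_smul, mul_smul, inv_smul_eq_iff] at this
    rw [this, one_smul]
  suffices H : ∀ (n : ℕ) (W : Set Ω), W.ncard ≤ n → (∀ h ∈ X, ∀ z ∈ W, h • z ∈ W) →
      0 ≤ dfct p (P : Subgroup G) W from
    H _ _ le_rfl fun _ _ _ _ => Set.mem_univ _
  intro n
  induction n with
  | zero =>
    intro W hW _
    simp [(Set.ncard_eq_zero (Set.toFinite W)).1 (Nat.le_zero.1 hW), dfct]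
  | succ n ih =>
    intro W hW hinv
    rcases W.eq_empty_or_nonempty with rfl | ⟨u, hu⟩
    · simp [dfct]
    let O : Set Ω := MulAction.orbit X u
    have hOW : O ⊆ W := by
      rintro _ ⟨g, rfl⟩
      exact hinv g g.2 u hu
    rw [← Set.union_sdiff_cancel hOW, dfct_union _ disjoint_sdiff_self_right]
    obtain ⟨k, hk, hku⟩ := hnofix u
    haveI : Finite (MulAction.orbit X u) := Subtype.finite
    have htop : fixP p X (∅ : Set (MulAction.orbit X u)) = ⊤ := by
      refine top_unique ?_
      refine (Subgroup.closure_closure_coe_preimage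
        (k := {g : G | (∀ s ∈ (∅ : Set Ω), g • s = s) ∧ PEl p g})).ge.trans ?_
      refine Subgroup.closure_mono ?_
      rintro g ⟨-, m, hm⟩
      exact ⟨by simp, m, (Subgroup.orderOf_coe g).symm.trans hm⟩
    have h := dfct_univ_nonneg (G := X) (Ω := MulAction.orbit X u) htop
      ⟨⟨k, hk⟩, ⟨u, MulAction.mem_orbit_self u⟩, fun h => hku (congrArg Subtype.val h)⟩
      (P.subtype hPX)
    have h1 : O.ncard = (Set.univ : Set (MulAction.orbit X u)).ncard := by
      rw [Set.ncard_univ, Nat.card_coe_set_eq]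
    have h2 : (O ∩ fixPts Ω (P : Subgroup G)).ncard =
        ((Set.univ : Set (MulAction.orbit X u)) ∩
          fixPts (MulAction.orbit X u) ((P.subtype hPX : Sylow p X) : Subgroup X)).ncard := by
      rw [Set.univ_inter, ← Set.ncard_image_of_injective _ Subtype.val_injective]
      congr 1
      ext z
      constructor
      · rintro ⟨hz, hf⟩
        exact ⟨⟨z, hz⟩, fun q hq => Subtype.ext (hf q.1 hq), rfl⟩
      · rintro ⟨w, hw, rfl⟩
        exact ⟨w.2, fun q hq => congrArg Subtype.val (hw ⟨q, hPX hq⟩ hq)⟩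
    have hO0 : 0 ≤ dfct p (P : Subgroup G) O := by
      simp only [dfct] at h ⊢
      rw [h1, h2]
      exact h
    have hlt : (W \ O).ncard < W.ncard :=
      Set.ncard_lt_ncard ⟨Set.sdiff_subset, fun h => (h hu).2 (MulAction.mem_orbit_self u)⟩
    refine add_nonneg hO0 (ih _ (by omega) fun h hh z hz => ⟨hinv h hh z hz.1, fun hmem => hz.2 ?_⟩)
    obtain ⟨g, hg⟩ := hmem
    refine ⟨⟨h⁻¹, inv_mem hh⟩ * g, ?_⟩
    change (h⁻¹ * (g : G)) • u = z
    change (g : G) • u = h • z at hg
    rw [mul_smul, hg, inv_smul_smul]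

omit [Finite G] in
/-- A `p`-group has at most `f + (n - f)/p` orbits. -/
theorem card_orbits_le (P : Subgroup G) (hP : IsPGroup p P) :
    p * Nat.card (orbitRel.Quotient P Ω) ≤ (p - 1) * (fixPts Ω P).ncard + Nat.card Ω := by
  classical
  haveI := Fintype.ofFinite Ω
  haveI := Fintype.ofFinite (orbitRel.Quotient P Ω)
  have hfix : (fixPts Ω P).ncard = (Finset.univ.filter
      fun ω : orbitRel.Quotient P Ω => Nat.card ω.orbit = 1).card := by
    rw [Set.ncard_eq_toFinset_card']
    refine Finset.card_bij (fun z _ => Quotient.mk'' z) ?_ ?_ ?_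
    · intro z hz
      rw [Set.mem_toFinset] at hz
      simp only [Finset.mem_filter, Finset.mem_univ, true_and]
      rw [Nat.card_coe_set_eq, Set.ncard_eq_one]
      refine ⟨z, ?_⟩
      rw [orbitRel.Quotient.orbit_mk]
      ext w
      constructor
      · rintro ⟨q, rfl⟩; exact hz q q.2
      · rintro rfl; exact mem_orbit_self w
    · intro a ha b hb hab
      rw [Set.mem_toFinset] at ha hb
      obtain ⟨q, hq⟩ := Quotient.eq''.1 hab
      exact hq.symm.trans (hb q q.2)
    · intro ω hω
      induction ω using Quotient.inductionOn' with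
      | h z =>
        simp only [Finset.mem_filter, Finset.mem_univ, true_and, Nat.card_coe_set_eq,
          Set.ncard_eq_one, orbitRel.Quotient.orbit_mk] at hω
        obtain ⟨c, hc⟩ := hω
        refine ⟨z, Set.mem_toFinset.2 fun q hq => ?_, rfl⟩
        have h1 : q • z ∈ orbit P z := ⟨⟨q, hq⟩, rfl⟩
        have h2 : z ∈ orbit P z := mem_orbit_self z
        rw [hc, Set.mem_singleton_iff] at h1 h2
        rw [h1, ← h2]
  have hn : Nat.card Ω = ∑ ω : orbitRel.Quotient P Ω, Nat.card ω.orbit := by
    rw [← Nat.card_sigma, Nat.card_congr (selfEquivSigmaOrbits' P Ω)]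
  rw [hfix, hn, Nat.card_eq_fintype_card, Finset.card_filter, Finset.mul_sum,
    ← Finset.sum_add_distrib, ← Finset.card_univ, Finset.card_eq_sum_ones, Finset.mul_sum]
  refine Finset.sum_le_sum fun ω _ => ?_
  induction ω using Quotient.inductionOn' with
  | h z =>
    obtain ⟨m, hm⟩ := hP.card_orbit z
    rw [orbitRel.Quotient.orbit_mk, hm]
    have hp := (Fact.out : p.Prime).one_le
    rcases m with - | m
    · simp; omega
    · have : p ≤ p ^ (m + 1) := Nat.le_self_pow (by omega) p
      split_ifs <;> omega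

end Cfsg.Agent.H9.SylowFix
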