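import Cfsg.Agent.H9.SylowFix.Deficit

/-!
Adding one point to the set `S`.
-/

namespace Cfsg.Agent.H9.SylowFix

open MulAction Pointwise

variable {G Ω : Type*} [Group G] [MulAction G Ω] {p : ℕ}

theorem mem_smul_sylow [Finite G] {Q : Sylow p G} {h q : G}
    (hq : q ∈ ((h • Q : Sylow p G) : Subgroup G)) :
    ∃ q₀ ∈ (Q : Subgroup G), h * q₀ * h⁻¹ = q := by
  rw [Sylow.coe_subgroup_smul] at hq
  obtain ⟨q₀, hq₀, rfl⟩ := hq
  exact ⟨q₀, hq₀, rfl⟩

theorem inv_of_fixed [Fact p.Prime] [Finite Ω] {S : Set Ω} {x : Ω} (hInv : Inv p G S)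
    (hfix : ∀ h ∈ fixP p G S, h • x = x) : Inv p G (insert x S) := by
  have hX : fixP p G (insert x S) = fixP p G S :=
    le_antisymm (fixP_mono (Set.subset_insert x S)) (fixP_le_iff.2 fun g hg hp =>
      mem_fixP (fun s hs => by
        rcases hs with rfl | hs
        · exact hfix g (mem_fixP hg hp)
        · exact hg s hs) hp)
  have hC : ∀ z, ptGrp p G (insert x S) z = ptGrp p G S z := fun z =>
    le_antisymm (fixP_mono (Set.insert_subset_insert (Set.subset_insert x S)))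
      (fixP_le_iff.2 fun g hg hp => mem_fixP (fun s hs => by
        rcases hs with rfl | rfl | hs
        · exact hg _ (Set.mem_insert _ S)
        · exact hfix g (mem_fixP (fun t ht => hg t (Set.mem_insert_of_mem _ ht)) hp)
        · exact hg s (Set.mem_insert_of_mem _ hs)) hp)
  intro y hy
  rw [hX] at hy ⊢
  obtain ⟨Z, hyZ, hinv, hmov, hconj, hgood, hdef⟩ := hInv y hy
  refine ⟨Z, hyZ, hinv, hmov, fun z hz => by simpa only [hC] using hconj z hz, fun z hz => ?_,
    fun Q hQ => ?_⟩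
  · obtain ⟨Q, hQ⟩ := hgood z hz
    refine ⟨Q, fun q hq s hs => ?_⟩
    rcases hs with rfl | rfl | hs
    · exact hQ q hq _ (Set.mem_insert _ S)
    · exact hfix q (sylow_le_fixP (p := p) (S := S) Q
        (fun r hr t ht => hQ r hr t (Set.mem_insert_of_mem _ ht)) hq)
    · exact hQ q hq s (Set.mem_insert_of_mem _ hs)
  · refine lt_of_lt_of_le (hdef Q hQ) ?_
    have hc : cls p G (insert x S) Z y = cls p G S Z y := by simp only [cls, hC]
    rw [hc]
    have : (S.ncard : ℤ) ≤ (insert x S).ncard := by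
      exact_mod_cast Set.ncard_le_ncard (Set.subset_insert x S)
    gcongr

variable [Fact p.Prime] [Finite G] [Finite Ω]

theorem inv_step (hb : OrbBound p G Ω) {S : Set Ω} {x : Ω} (hInv : Inv p G S)
    (hmax : ∀ a c : Ω, (∃ h ∈ fixP p G S, h • a ≠ a) → (∃ h ∈ fixP p G S, h • c ≠ c) →
      ptGrp p G S a ≤ ptGrp p G S c → ptGrp p G S a = ptGrp p G S c)
    (hx : ∃ h ∈ fixP p G S, h • x ≠ x) (hcard : S.ncard + 2 ≤ p) : Inv p G (insert x S) := by
  classical
  obtain ⟨Zx, hxZ, -, -, -, hgoodx, -⟩ := hInv x hx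
  obtain ⟨Q₀, hQ₀⟩ := hgoodx x hxZ
  have hxS : x ∉ S := fun h => by
    obtain ⟨g, hg, hne⟩ := hx
    exact hne (fixP_smul_eq hg h)
  have hn : (insert x S).ncard = S.ncard + 1 := Set.ncard_insert_of_notMem hxS
  have hKS : fixP p G (insert x S) ≤ fixP p G S := fixP_mono (Set.subset_insert x S)
  intro y hy
  have hyS : ∃ h ∈ fixP p G S, h • y ≠ y := hy.imp fun h hh => ⟨hKS hh.1, hh.2⟩
  obtain ⟨Z, hyZ, hinv, hmov, hconj, hgood, hdef⟩ := hInv y hyS
  set K := fixP p G (insert x S) with hK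
  let Z' : Set Ω := {z ∈ Z | ∃ k ∈ K, ptGrp p G S z = ptGrp p G S (k • y)}
  let Fx : Set Ω := {z ∈ Z | ∀ h ∈ K, h • z = z}
  have hyZ' : y ∈ Z' := ⟨hyZ, 1, K.one_mem, by rw [one_smul]⟩
  have hinv' : ∀ h ∈ K, ∀ z ∈ Z', h • z ∈ Z' := by
    rintro h hh z ⟨hz, k, hk, he⟩
    refine ⟨hinv h (hKS hh) z hz, h * k, mul_mem hh hk, ?_⟩
    rw [mul_smul]
    exact ptGrp_smul_congr (hKS hh) he
  have hKle : ∀ z, (∀ h ∈ K, h • z = z) → K ≤ ptGrp p G S z := fun z hz =>
    fixP_le_iff.2 fun g hg hp => mem_fixP (fun s hs => by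
      rcases hs with rfl | hs
      · exact hz g (mem_fixP hg hp)
      · exact hg s (Set.mem_insert_of_mem _ hs)) hp
  have hmov' : ∀ z ∈ Z', ∃ k ∈ K, k • z ≠ z := by
    rintro z ⟨-, k, hk, he⟩
    by_contra hall
    push_neg at hall
    obtain ⟨h, hh, hne⟩ := hy
    have h1 : k * h * k⁻¹ ∈ ptGrp p G S (k • y) :=
      he ▸ hKle z hall (mul_mem (mul_mem hk hh) (inv_mem hk))
    have h2 := ptGrp_fix h1
    rw [mul_smul, mul_smul, inv_smul_smul, smul_left_cancel_iff] at h2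
    exact hne h2
  have hcongr : ∀ z w, ptGrp p G S z = ptGrp p G S w →
      ptGrp p G (insert x S) z = ptGrp p G (insert x S) w := by
    have : ∀ z w, ptGrp p G S z = ptGrp p G S w →
        ptGrp p G (insert x S) z ≤ ptGrp p G (insert x S) w := fun z w he =>
      fixP_le_iff.2 fun g hg hp => mem_fixP (fun s hs => by
        rcases hs with rfl | hs
        · have h1 : g ∈ ptGrp p G S z := mem_fixP (fun t ht => hg t (by
            rcases ht with rfl | ht
            · exact Set.mem_insert _ _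
            · exact Set.mem_insert_of_mem _ (Set.mem_insert_of_mem _ ht))) hp
          rw [he] at h1
          exact ptGrp_fix h1
        · exact hg s (Set.mem_insert_of_mem _ hs)) hp
    exact fun z w he => le_antisymm (this z w he) (this w z he.symm)
  set b := (cls p G S Z y).ncard
  have hb1 : 1 ≤ b := (Set.ncard_pos (Set.toFinite _)).2 ⟨y, hyZ, rfl⟩
  -- the deficit of `Z'`
  have hbound : ∀ Q : Sylow p G, (Q : Subgroup G) ≤ K →
      dfct p (Q : Subgroup G) Z' < (p : ℤ) * (S.ncard + 1) * b := by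
    intro Q hQ
    have hFxle : Fx.ncard ≤ b := by
      rcases Fx.eq_empty_or_nonempty with h | ⟨z₁, hz₁, hz₁f⟩
      · simp [h]
      · have heq : ∀ z ∈ Fx, ptGrp p G S x = ptGrp p G S z := fun z hz =>
          hmax x z hx (hmov z hz.1) (hKle z hz.2)
        rw [show b = (cls p G S Z z₁).ncard from (ncard_cls_eq hinv (hconj z₁ hz₁)).symm]
        exact Set.ncard_le_ncard fun z hz =>
          ⟨hz.1, (heq z hz).symm.trans (heq z₁ ⟨hz₁, hz₁f⟩)⟩
    have hdisj : Disjoint Z' Fx := Set.disjoint_left.2 fun z hz hz' => by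
      obtain ⟨k, hk, hne⟩ := hmov' z hz
      exact hne (hz'.2 k hk)
    have hsub : Z' ∪ Fx ⊆ Z := Set.union_subset (fun z hz => hz.1) (fun z hz => hz.1)
    have hsplit : Z = (Z' ∪ Fx) ∪ (Z \ (Z' ∪ Fx)) := (Set.union_diff_cancel hsub).symm
    have hrest : 0 ≤ dfct p (Q : Subgroup G) (Z \ (Z' ∪ Fx)) := by
      refine dfct_nonneg_of_invariant hb (S := insert x S) ⟨x, Set.mem_insert x S⟩ Q hQ _ _ le_rfl
        (fun h hh z hz => ⟨hinv h (hKS hh) z hz.1, fun hmem => hz.2 ?_⟩) (fun z hz => ?_)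
      · rcases hmem with hmem | hmem
        · left
          have := hinv' _ (inv_mem hh) _ hmem
          rwa [inv_smul_smul] at this
        · right
          refine ⟨hz.1, fun k hk => ?_⟩
          have := hmem.2 (h * k * h⁻¹) (mul_mem (mul_mem hh hk) (inv_mem hh))
          rwa [mul_smul, mul_smul, inv_smul_smul, smul_left_cancel_iff] at this
      · by_contra hall
        push_neg at hall
        exact hz.2 (Or.inr ⟨hz.1, hall⟩)
    have hFxF : Fx ∩ fixPts Ω (Q : Subgroup G) = Fx :=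
      Set.inter_eq_left.2 fun z hz q hq => hz.2 q (hQ hq)
    have hFxd : dfct p (Q : Subgroup G) Fx = -((p : ℤ) * Fx.ncard) := by
      simp only [dfct, hFxF]; ring
    have h := hdef Q (le_trans hQ hKS)
    rw [hsplit, dfct_union _ disjoint_sdiff_self_right, dfct_union _ hdisj, hFxd] at h
    have h' : (p : ℤ) * Fx.ncard ≤ p * b := by exact_mod_cast Nat.mul_le_mul_left p hFxle
    try rw [show (cls p G S ((Z' ∪ Fx) ∪ (Z \ (Z' ∪ Fx))) y).ncard = b by rw [← hsplit]] at h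
    linarith
  have hgood' : ∀ z ∈ Z', Good p G (insert z (insert x S)) := by
    have hQK : (Q₀ : Subgroup G) ≤ K := sylow_le_fixP Q₀ hQ₀
    have hne : ∃ z₀ ∈ Z', z₀ ∈ fixPts Ω (Q₀ : Subgroup G) := by
      by_contra hall
      push_neg at hall
      have hq : ∃ q ∈ (Q₀ : Subgroup G), q • y ≠ y := by simpa [fixPts] using hall y hyZ'
      have hc := orbit_classes (Z := Z) (W := Z') (y := y) Q₀ (le_trans hQK hKS) hyZ'
        (fun z hz => hz.1) (fun q hq z hz => hinv' q (hQK hq) z hz)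
        (fun z hz z' hz' he => ⟨hz', hz.2.imp fun k hk => ⟨hk.1, he.trans hk.2⟩⟩)
        hgood hinv hconj hq
      change p * b ≤ _ at hc
      have hdiff : Z' \ fixPts Ω (Q₀ : Subgroup G) = Z' :=
        sdiff_eq_left.2 (Set.disjoint_left.2 hall)
      have hint : Z' ∩ fixPts Ω (Q₀ : Subgroup G) = ∅ :=
        Set.disjoint_iff_inter_eq_empty.1 (Set.disjoint_left.2 hall)
      rw [hdiff] at hc
      have h := hbound Q₀ hQK
      simp only [dfct, hint, Set.ncard_empty, Nat.cast_zero, mul_zero, sub_zero] at h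
      have h1 : (p : ℤ) * b ≤ Z'.ncard := by exact_mod_cast hc
      have h2 : (2 : ℤ) ≤ p := by exact_mod_cast (Fact.out : p.Prime).two_le
      have h3 : (S.ncard : ℤ) + 2 ≤ p := by exact_mod_cast hcard
      nlinarith [mul_le_mul_of_nonneg_left h1 (show (0 : ℤ) ≤ (p : ℤ) - 1 by linarith),
        mul_le_mul_of_nonneg_right (show (S.ncard : ℤ) + 1 ≤ (p : ℤ) - 1 by linarith)
          (show (0 : ℤ) ≤ (p : ℤ) * b by positivity)]
    obtain ⟨z₀, ⟨hz₀, k₀, hk₀, he₀⟩, hz₀f⟩ := hne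
    rintro z ⟨hz, k, hk, he⟩
    have hh : k * k₀⁻¹ ∈ K := mul_mem hk (inv_mem hk₀)
    have hez : ptGrp p G S ((k * k₀⁻¹) • z₀) = ptGrp p G S z := by
      rw [ptGrp_smul_congr (hKS hh) he₀, ← mul_smul, inv_mul_cancel_right]
      exact he.symm
    refine ⟨(k * k₀⁻¹) • Q₀, fun q hq s hs => ?_⟩
    obtain ⟨q₀, hq₀, rfl⟩ := mem_smul_sylow hq
    have hmemK : (k * k₀⁻¹) * q₀ * (k * k₀⁻¹)⁻¹ ∈ K :=
      mul_mem (mul_mem hh (hQK hq₀)) (inv_mem hh)
    rcases hs with rfl | hs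
    · refine ptGrp_fix (p := p) (S := S) ?_
      rw [← hez, ptGrp_smul (hKS hh)]
      refine ⟨q₀, mem_fixP (fun t ht => ?_) (pel_of_mem Q₀.2 hq₀), rfl⟩
      rcases ht with rfl | ht
      · exact hz₀f q₀ hq₀
      · exact fixP_smul_eq (hKS (hQK hq₀)) ht
    · exact fixP_smul_eq hmemK hs
  refine ⟨Z', hyZ', hinv', hmov', ?_, hgood', fun Q hQ => ?_⟩
  · rintro z ⟨hz, k, hk, he⟩
    exact ⟨k, hk, hcongr _ _ he⟩
  · refine lt_of_lt_of_le (hbound Q hQ) ?_
    have hbb : b ≤ (cls p G (insert x S) Z' y).ncard :=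
      Set.ncard_le_ncard fun z hz =>
        ⟨⟨hz.1, 1, K.one_mem, by rw [one_smul]; exact hz.2⟩, hcongr _ _ hz.2⟩
    rw [hn]
    push_cast
    gcongr

end Cfsg.Agent.H9.SylowFix
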