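import Cfsg.Agent.H9.SylowFix.Main

/-!
`n_p(H) / n_p(G)` is the fixed point ratio of a Sylow subgroup on the cosets of `H`.
-/

namespace Cfsg.Agent.H9.SylowFix

open MulAction Pointwise

variable {G : Type*} [Group G] [Finite G] {p : ℕ} [Fact p.Prime]

theorem ncard_fixPts_sylow_eq {Ω : Type*} [MulAction G Ω] [Finite Ω] (Q R : Sylow p G) :
    (fixPts Ω (Q : Subgroup G)).ncard = (fixPts Ω (R : Subgroup G)).ncard := by
  have h := dfct_univ_eq (Ω := Ω) Q R
  simp only [dfct, Set.univ_inter] at h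
  have hp : (2 : ℤ) ≤ p := by exact_mod_cast (Fact.out : p.Prime).two_le
  have : ((fixPts Ω (Q : Subgroup G)).ncard : ℤ) = (fixPts Ω (R : Subgroup G)).ncard := by
    nlinarith
  exact_mod_cast this

theorem card_sylow_mul (H : Subgroup G) (P : Sylow p G) (hP : (P : Subgroup G) ≤ H) :
    Nat.card (G ⧸ H) * Nat.card (Sylow p H) =
      Nat.card (Sylow p G) * (fixPts (G ⧸ H) (P : Subgroup G)).ncard := by
  classical
  haveI := Fintype.ofFinite (G ⧸ H)
  haveI := Fintype.ofFinite (Sylow p G)
  -- Sylow subgroups of `G` inside `H`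
  have e1 : Nat.card {Q : Sylow p G // (Q : Subgroup G) ≤ H} = Nat.card (Sylow p H) := by
    refine Nat.card_eq_of_bijective (fun Q => Q.1.subtype Q.2) ⟨fun Q R h => ?_, fun R => ?_⟩
    · exact Subtype.ext (Sylow.subtype_injective h)
    · obtain ⟨Q, hQ⟩ := R.exists_comap_subtype_eq
      have hle : (Q : Subgroup G) ≤ H := by
        have h1 : Nat.card (R : Subgroup H) = Nat.card (P : Subgroup G) := by
          rw [Sylow.card_eq_multiplicity R, ← Sylow.card_eq_multiplicity (P.subtype hP),
            Sylow.coe_subtype, Nat.card_congr (Subgroup.subgroupOfEquivOfLe hP).toEquiv]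
        have h2 : Nat.card (Q : Subgroup G) = Nat.card (P : Subgroup G) := by
          rw [Sylow.card_eq_multiplicity, Sylow.card_eq_multiplicity]
        have h3 : ((R : Subgroup H).map H.subtype) = (Q : Subgroup G) := by
          refine Subgroup.eq_of_le_of_card_ge ?_ ?_
          · rw [← hQ]; exact Subgroup.map_comap_le _ _
          · rw [Subgroup.card_map_of_injective H.subtype_injective, h1, h2]
        rw [← h3]
        exact Subgroup.map_subtype_le _
      exact ⟨⟨Q, hle⟩, Sylow.ext (by rw [Sylow.coe_subtype, ← hQ]; rfl)⟩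
  have hrow : ∀ c : G ⧸ H, Nat.card {Q : Sylow p G // c ∈ fixPts (G ⧸ H) (Q : Subgroup G)} =
      Nat.card (Sylow p H) := by
    intro c
    induction c using QuotientGroup.induction_on with
    | H g =>
      rw [← e1]
      refine Nat.card_congr (Equiv.subtypeEquiv (MulAction.toPerm g⁻¹) fun Q => ?_)
      constructor
      · intro hc q hq
        rw [MulAction.toPerm_apply, Sylow.coe_subgroup_smul] at hq
        obtain ⟨q₀, hq₀, rfl⟩ := hq
        have h := hc q₀ hq₀
        rw [MulAction.Quotient.smul_coe, QuotientGroup.eq, smul_eq_mul] at h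
        have h' := inv_mem h
        simpa [mul_assoc] using h'
      · intro hle q hq
        rw [MulAction.Quotient.smul_coe, QuotientGroup.eq, smul_eq_mul]
        have h : g⁻¹ * q * g⁻¹⁻¹ ∈ H := hle (by
          rw [MulAction.toPerm_apply, Sylow.coe_subgroup_smul]
          exact ⟨q, hq, rfl⟩)
        have h' := inv_mem h
        simpa [mul_assoc] using h'
  have hsum : Nat.card (Σ c : G ⧸ H, {Q : Sylow p G // c ∈ fixPts (G ⧸ H) (Q : Subgroup G)}) =
      Nat.card (Σ Q : Sylow p G, fixPts (G ⧸ H) (Q : Subgroup G)) :=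
    Nat.card_congr ⟨fun x => ⟨x.2.1, x.1, x.2.2⟩, fun x => ⟨x.2.1, x.1, x.2.2⟩,
      fun _ => rfl, fun _ => rfl⟩
  rw [Nat.card_sigma, Nat.card_sigma, Finset.sum_congr rfl fun c _ => hrow c,
    Finset.sum_congr rfl (fun (Q : Sylow p G) (_ : Q ∈ Finset.univ) =>
      (Nat.card_coe_set_eq (fixPts (G ⧸ H) (Q : Subgroup G))).trans (ncard_fixPts_sylow_eq Q P)),
    Finset.sum_const, Finset.sum_const, smul_eq_mul, smul_eq_mul, Finset.card_univ,
    Finset.card_univ, ← Nat.card_eq_fintype_card, ← Nat.card_eq_fintype_card] at hsum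
  exact hsum

theorem sylow_count_bound (hgen : Subgroup.closure {g : G | ∃ k : ℕ, orderOf g = p ^ k} = ⊤)
    (H : Subgroup G) (hH : H ≠ ⊤) (P : Sylow p G) (hP : (P : Subgroup G) ≤ H) :
    (2 * p - 1) * Nat.card (Sylow p H) ≤ (p - 1) * Nat.card (Sylow p G) := by
  have htop : fixP p G (∅ : Set (G ⧸ H)) = ⊤ := by
    refine top_unique (hgen ▸ Subgroup.closure_mono fun g hg => ⟨by simp, hg⟩)
  obtain ⟨g, hg⟩ : ∃ g, g ∉ H := by
    by_contra h
    push_neg at h
    exact hH ((Subgroup.eq_top_iff' H).2 h)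
  have hmove : ∃ (g : G) (x : G ⧸ H), g • x ≠ x := by
    refine ⟨g, ((1 : G) : G ⧸ H), ?_⟩
    rw [MulAction.Quotient.smul_coe, ne_eq, QuotientGroup.eq]
    simpa using fun h => hg (by simpa using inv_mem h)
  have h := dfct_univ_nonneg htop hmove P
  simp only [dfct, Set.univ_inter, Set.ncard_univ] at h
  have hc := card_sylow_mul H P hP
  have hpos : 0 < Nat.card (G ⧸ H) := Nat.card_pos
  have hp := (Fact.out : p.Prime).two_le
  refine Nat.le_of_mul_le_mul_left ?_ hpos
  calc Nat.card (G ⧸ H) * ((2 * p - 1) * Nat.card (Sylow p H))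
      = (2 * p - 1) * (fixPts (G ⧸ H) (P : Subgroup G)).ncard * Nat.card (Sylow p G) := by
        rw [Nat.mul_left_comm, hc]; ring
    _ ≤ (p - 1) * Nat.card (G ⧸ H) * Nat.card (Sylow p G) := by
        refine Nat.mul_le_mul_right _ ?_
        zify [show 1 ≤ 2 * p by omega, show 1 ≤ p by omega]
        linarith
    _ = Nat.card (G ⧸ H) * ((p - 1) * Nat.card (Sylow p G)) := by ring

end Cfsg.Agent.H9.SylowFix
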